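import Cfsg.Agent.CpAut.Alt
import Cfsg.Agent.Lib.ComponentSolvable
import Cfsg.Agent.SignalizersComponents.ComponentNormalize
import Cfsg.Agent.Prune
set_option linter.all false
prune_inst 0x7f00000000000000000000000000000000000000000000000000000000000000000000000000000000000000000000000000000000000000000000000000000000000000000000000000000000000000003fffffffffffffffffffffffffffbeffbdffffffff
open scoped Cfsg.Agent.FastGrp

/-!
# Components of `C_K(t)`, `K` alternating, `t` an involutory automorphism

* `comp_perm` : `x` an involution of `Perm α`, `K` a component of `C(x) ∩ Alt(α)`: `K = Alt(Fix x)`, `|Fix x| ≥ 5`;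
* `comp_fixed` : the form with an abstract group `X ≃* A_n` (`n ≥ 7`) and `t ∈ MulAut X`, `t² = 1 ≠ t`.
-/

set_option autoImplicit false

namespace Cfsg.Agent.H12.AltComp

open Subgroup Cfsg Equiv Equiv.Perm
open Cfsg.Agent.GenType Cfsg.Agent.CpAut

section perm

variable {α : Type} [Fintype α] [DecidableEq α] (x : Perm α)

/-- `C(x) ∩ Alt(α)` -/
def H : Subgroup (Perm α) := centralizer ({x} : Set (Perm α)) ⊓ alternatingGroup α

/-- the even permutations fixing all points moved by `x` -/
def D : Subgroup (Perm α) where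
  carrier := {g | g ∈ alternatingGroup α ∧ ∀ i, x i ≠ i → g i = i}
  one_mem' := ⟨one_mem _, fun _ _ => rfl⟩
  mul_mem' := by
    rintro a b ⟨ha, ha'⟩ ⟨hb, hb'⟩
    refine ⟨mul_mem ha hb, fun i hi => ?_⟩
    show a (b i) = i
    rw [hb' i hi, ha' i hi]
  inv_mem' := by
    rintro a ⟨ha, ha'⟩
    refine ⟨inv_mem ha, fun i hi => ?_⟩
    rw [inv_eq_iff_eq, ha' i hi]

/-- the elements of `H` which map every `i` to `i` or `x i` -/
def E (hx : x * x = 1) : Subgroup (Perm α) where
  carrier := {c | c ∈ H x ∧ ∀ i, c i = i ∨ c i = x i}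
  one_mem' := ⟨one_mem _, fun i => Or.inl rfl⟩
  mul_mem' := by
    rintro a b ⟨ha, ha'⟩ ⟨hb, hb'⟩
    have hxx : ∀ i, x (x i) = i := fun i => congrFun (congrArg (fun c : Perm α => (c : α → α)) hx) i
    have hc : ∀ i, x (a i) = a (x i) := fun i =>
      (congrFun (congrArg (fun c : Perm α => (c : α → α)) (mem_centralizer_singleton_iff.1 ha.1)) i).symm
    refine ⟨mul_mem ha hb, fun i => ?_⟩
    show a (b i) = i ∨ a (b i) = x i
    rcases hb' i with h | h
    · rw [h]; exact ha' i
    · rw [h, ← hc]
      rcases ha' i with h2 | h2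
      · right; rw [h2]
      · left; rw [h2, hxx]
  inv_mem' := by
    rintro a ⟨ha, ha'⟩
    have hxx : ∀ i, x (x i) = i := fun i => congrFun (congrArg (fun c : Perm α => (c : α → α)) hx) i
    have hc : ∀ i, x (a i) = a (x i) := fun i =>
      (congrFun (congrArg (fun c : Perm α => (c : α → α)) (mem_centralizer_singleton_iff.1 ha.1)) i).symm
    refine ⟨inv_mem ha, fun i => ?_⟩
    rcases ha' i with h | h
    · left; rw [inv_eq_iff_eq, h]
    · right; rw [inv_eq_iff_eq, ← hc, h, hxx]

variable {x}

theorem xx (hx : x * x = 1) (i : α) : x (x i) = i :=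
  congrFun (congrArg (fun c : Perm α => (c : α → α)) hx) i

theorem comm {c : Perm α} (hc : c ∈ H x) (i : α) : x (c i) = c (x i) :=
  (congrFun (congrArg (fun c : Perm α => (c : α → α)) (mem_centralizer_singleton_iff.1 hc.1)) i).symm

theorem moved {c : Perm α} (hc : c ∈ H x) (i : α) : x (c i) ≠ c i ↔ x i ≠ i := by
  rw [comm hc, ne_eq, c.injective.eq_iff]

theorem D_le : D x ≤ H x := by
  intro g hg
  refine mem_inf.2 ⟨mem_centralizer_singleton_iff.2 ?_, hg.1⟩
  ext i
  show g (x i) = x (g i)
  by_cases hi : x i = i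
  · rw [hi]
    by_contra hne
    have h1 : g (g i) = g i := hg.2 _ (Ne.symm hne)
    have h2 := g.injective h1
    rw [h2, hi] at hne
    exact hne rfl
  · rw [hg.2 i hi]
    refine hg.2 _ fun h => hi (x.injective h)

theorem E_normal (hx : x * x = 1) {g c : Perm α} (hg : g ∈ H x) (hc : c ∈ E x hx) : g * c * g⁻¹ ∈ E x hx := by
  refine ⟨mul_mem (mul_mem hg hc.1) (inv_mem hg), fun i => ?_⟩
  show g (c (g⁻¹ i)) = i ∨ g (c (g⁻¹ i)) = x i
  rcases hc.2 (g⁻¹ i) with h | h
  · left; rw [h]; exact g.apply_symm_apply i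
  · right; rw [h, ← comm hg]; exact congrArg _ (g.apply_symm_apply i)

theorem E_sq (hx : x * x = 1) {c : Perm α} (hc : c ∈ E x hx) : c * c = 1 := by
  ext i
  show c (c i) = i
  rcases hc.2 i with h | h
  · rw [h, h]
  · rw [h, ← comm hc.1, h, xx hx]

theorem exists_tau (hx : x * x = 1) {i j : α} (hi : x i ≠ i) (hj : x j ≠ j) (h1 : j ≠ i) (h2 : j ≠ x i) :
    ∃ c ∈ E x hx, c i = x i ∧ ∀ k, c k ≠ k → k = i ∨ k = x i ∨ k = j ∨ k = x j := by
  have h3 : i ≠ x j := by
    intro h
    apply h2
    rw [h, xx hx]
  have h4 : x j ≠ x i := fun h => h1 (x.injective h)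
  have hs : sign (swap i (x i) * swap j (x j)) = 1 := by
    rw [map_mul, sign_swap (Ne.symm hi), sign_swap (Ne.symm hj)]
    rfl
  have hsupp : ∀ k, (swap i (x i) * swap j (x j)) k ≠ k → k = i ∨ k = x i ∨ k = j ∨ k = x j := by
    intro k hk
    by_contra hne
    push Not at hne
    obtain ⟨a1, a2, a3, a4⟩ := hne
    apply hk
    show swap i (x i) (swap j (x j) k) = k
    rw [swap_apply_of_ne_of_ne a3 a4, swap_apply_of_ne_of_ne a1 a2]
  have hval : ∀ k, (swap i (x i) * swap j (x j)) k = k ∨ (swap i (x i) * swap j (x j)) k = x k := by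
    intro k
    show swap i (x i) (swap j (x j) k) = k ∨ swap i (x i) (swap j (x j) k) = x k
    by_cases hk : k = j
    · right
      rw [hk, swap_apply_left, swap_apply_of_ne_of_ne (Ne.symm h3) h4]
    · by_cases hk' : k = x j
      · right
        rw [hk', swap_apply_right, swap_apply_of_ne_of_ne h1 h2, xx hx]
      · rw [swap_apply_of_ne_of_ne hk hk']
        by_cases hk2 : k = i
        · right; rw [hk2, swap_apply_left]
        · by_cases hk3 : k = x i
          · right; rw [hk3, swap_apply_right, xx hx]
          · left; rw [swap_apply_of_ne_of_ne hk2 hk3]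
  have hconj : ∀ a : α, x * swap a (x a) = swap a (x a) * x := by
    intro a
    rw [mul_swap_eq_swap_mul, xx hx, swap_comm]
  refine ⟨swap i (x i) * swap j (x j), ⟨mem_inf.2 ⟨mem_centralizer_singleton_iff.2 ?_, ?_⟩, hval⟩, ?_, hsupp⟩
  · rw [mul_assoc, ← hconj j, ← mul_assoc, ← hconj i, mul_assoc]
  · exact mem_alternatingGroup.2 hs
  · show swap i (x i) (swap j (x j) i) = x i
    rw [swap_apply_of_ne_of_ne h1.symm h3, swap_apply_left]

/-- restriction to the moved points -/
def rho (x : Perm α) : ↥(H x) →* Perm {i : α // x i ≠ i} where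
  toFun c := (c : Perm α).subtypePerm fun i => moved c.2 i
  map_one' := by
    ext i
    rfl
  map_mul' a b := by
    ext i
    rfl

theorem ker_rho (x : Perm α) : (rho x).ker = (D x).subgroupOf (H x) := by
  ext c
  rw [MonoidHom.mem_ker, mem_subgroupOf]
  constructor
  · intro h
    refine ⟨c.2.2, fun i hi => ?_⟩
    have := congrArg (fun f : Perm {i : α // x i ≠ i} => ((f ⟨i, hi⟩ : {i : α // x i ≠ i}) : α)) h
    exact this
  · intro h
    ext i
    exact h.2 i i.2

/-- a component of `H` acts trivially on the moved points -/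
theorem comp_le (hx : x * x = 1) {K : Subgroup ↥(H x)} (hK : IsComponent K) : K ≤ (D x).subgroupOf (H x) := by
  by_cases h4 : Fintype.card {i : α // x i ≠ i} ≤ 4
  · have hs : Group.IsSolvable (Perm {i : α // x i ≠ i}) := solvable_perm h4
    rw [← ker_rho]
    apply le_of_perfect _ hK.2.1
    exact Group.isSolvable_of_isSolvable_injective (f := (QuotientGroup.kerLift (rho x)))
      (QuotientGroup.kerLift_injective (rho x))
  · push Not at h4
    -- `K` commutes with `E`
    have hE : ∀ k ∈ K, ∀ c ∈ E x hx, (k : Perm α) * c = c * k := by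
      have hcom : ∀ a ∈ (E x hx).subgroupOf (H x), ∀ b ∈ (E x hx).subgroupOf (H x), a * b = b * a := by
        intro a ha b hb
        have ha2 : a * a = 1 := Subtype.ext (E_sq hx ha)
        have hb2 : b * b = 1 := Subtype.ext (E_sq hx hb)
        have hab2 : (a * b) * (a * b) = 1 := Subtype.ext (E_sq hx (mul_mem ha hb))
        have h1 := mul_eq_one_iff_eq_inv.1 ha2
        have h2 := mul_eq_one_iff_eq_inv.1 hb2
        have h3 := mul_eq_one_iff_eq_inv.1 hab2
        rw [mul_inv_rev, ← h1, ← h2] at h3
        exact h3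
      have hsol : Group.IsSolvable ((E x hx).subgroupOf (H x)) := by
        let _ : CommGroup ((E x hx).subgroupOf (H x)) :=
          { (inferInstance : Group ((E x hx).subgroupOf (H x))) with
            mul_comm := fun a b => Subtype.ext (hcom a a.2 b b.2) }
        infer_instance
      have hn : K ≤ normalizer (((E x hx).subgroupOf (H x) : Subgroup ↥(H x)) : Set ↥(H x)) := by
        have : ((E x hx).subgroupOf (H x)).Normal := ⟨fun c hc g => E_normal hx g.2 hc⟩
        rw [normalizer_eq_top]
        exact le_top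
      have h1 := Cfsg.Agent.Lib.ComponentSolvable.commutator_component_solvable_eq_bot hK hsol hn
      intro k hk c hc
      have h2 := commutator_eq_bot_iff_le_centralizer.1 h1 hk
      exact (congrArg Subtype.val (mem_centralizer_iff.1 h2 ⟨c, hc.1⟩ hc)).symm
    -- pairs
    have hpair : ∀ k ∈ K, ∀ i j, x i ≠ i → x j ≠ j → j ≠ i → j ≠ x i →
        (k : Perm α) i = i ∨ (k : Perm α) i = x i ∨ (k : Perm α) i = j ∨ (k : Perm α) i = x j := by
      intro k hk i j hi hj h1 h2
      obtain ⟨c, hc, hci, hcs⟩ := exists_tau hx hi hj h1 h2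
      apply hcs
      have h3 : (k : Perm α) (c i) = c ((k : Perm α) i) :=
        congrFun (congrArg (fun c : Perm α => (c : α → α)) (hE k hk c hc)) i
      rw [← h3, hci]
      exact fun h => hi ((k : Perm α).injective h)
    have hP : ∀ k ∈ K, ∀ i, x i ≠ i → (k : Perm α) i = i ∨ (k : Perm α) i = x i := by
      intro k hk i hi
      -- a second orbit
      obtain ⟨j, hj, hj1, hj2⟩ : ∃ j, x j ≠ j ∧ j ≠ i ∧ j ≠ x i := by
        by_contra hcon
        push Not at hcon
        have h5 : (Finset.univ : Finset {i : α // x i ≠ i}) ⊆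
            {⟨i, hi⟩, ⟨x i, fun h => hi (x.injective h)⟩} := by
          intro j _
          rw [Finset.mem_insert, Finset.mem_singleton]
          by_cases hji : (j : α) = i
          · left; exact Subtype.ext hji
          · right; exact Subtype.ext (hcon j j.2 hji)
        have h6 := (Finset.card_le_card h5).trans Finset.card_le_two
        rw [Finset.card_univ] at h6
        omega
      obtain ⟨l, hl, hl1, hl2, hl3, hl4⟩ : ∃ l, x l ≠ l ∧ l ≠ i ∧ l ≠ x i ∧ l ≠ j ∧ l ≠ x j := by
        by_contra hcon
        push Not at hcon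
        have h5 : (Finset.univ : Finset {i : α // x i ≠ i}) ⊆
            {⟨i, hi⟩, ⟨x i, fun h => hi (x.injective h)⟩, ⟨j, hj⟩, ⟨x j, fun h => hj (x.injective h)⟩} := by
          intro l _
          rw [Finset.mem_insert, Finset.mem_insert, Finset.mem_insert, Finset.mem_singleton]
          by_cases h1 : (l : α) = i
          · left; exact Subtype.ext h1
          · by_cases h2 : (l : α) = x i
            · right; left; exact Subtype.ext h2
            · by_cases h3 : (l : α) = j
              · right; right; left; exact Subtype.ext h3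
              · right; right; right; exact Subtype.ext (hcon l l.2 h1 h2 h3)
        have h6 := (Finset.card_le_card h5).trans Finset.card_le_four
        rw [Finset.card_univ] at h6
        omega
      rcases hpair k hk i j hi hj hj1 hj2 with h | h | h | h
      · exact Or.inl h
      · exact Or.inr h
      · rcases hpair k hk i l hi hl hl1 hl2 with h' | h' | h' | h'
        · exact Or.inl h'
        · exact Or.inr h'
        · exact absurd (h'.symm.trans h) hl3
        · exfalso
          apply hl4
          rw [← h, h', xx hx]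
      · rcases hpair k hk i l hi hl hl1 hl2 with h' | h' | h' | h'
        · exact Or.inl h'
        · exact Or.inr h'
        · exact absurd (h'.symm.trans h) hl4
        · exact absurd (x.injective (h'.symm.trans h)) hl3
    -- commutators are trivial on the moved points
    have hKK : ⁅K, K⁆ = K := Subgroup.isPerfect_iff.mp hK.2.1
    rw [← hKK, commutator_le]
    intro a ha b hb
    rw [mem_subgroupOf]
    refine ⟨(a * b * a⁻¹ * b⁻¹).2.2, ?_⟩
    have hab : ∀ i, x i ≠ i → (a : Perm α) ((b : Perm α) i) = (b : Perm α) ((a : Perm α) i) := by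
      intro i hi
      rcases hP a ha i hi with h1 | h1 <;> rcases hP b hb i hi with h2 | h2
      · rw [h1, h2, h1]
      · rw [h1, h2, ← comm a.2, h1]
      · rw [h1, h2, h1, ← comm b.2, h2]
      · rw [h1, h2, ← comm a.2, h1, ← comm b.2, h2]
    intro i hi
    show (a : Perm α) ((b : Perm α) ((a : Perm α)⁻¹ ((b : Perm α)⁻¹ i))) = i
    have h1 : x ((a : Perm α)⁻¹ ((b : Perm α)⁻¹ i)) ≠ (a : Perm α)⁻¹ ((b : Perm α)⁻¹ i) := by
      exact (moved ((H x).inv_mem a.2) _).2 ((moved ((H x).inv_mem b.2) i).2 hi)
    rw [hab _ h1]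
    show (b : Perm α) ((a : Perm α) ((a : Perm α)⁻¹ ((b : Perm α)⁻¹ i))) = i
    have h2 : (a : Perm α) ((a : Perm α)⁻¹ ((b : Perm α)⁻¹ i)) = (b : Perm α)⁻¹ i := (a : Perm α).apply_symm_apply _
    rw [h2]
    exact (b : Perm α).apply_symm_apply _

/-- `Alt(Fix x) → Perm α` -/
def phi (x : Perm α) : alternatingGroup {i : α // x i = i} →* Perm α :=
  (ofSubtype (p := fun i => x i = i)).comp (alternatingGroup {i : α // x i = i}).subtype

theorem phi_injective (x : Perm α) : Function.Injective (phi x) :=
  ofSubtype_injective.comp Subtype.val_injective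

theorem range_phi (x : Perm α) : (phi x).range = D x := by
  ext g
  constructor
  · rintro ⟨c, rfl⟩
    refine ⟨?_, fun i hi => ?_⟩
    · rw [mem_alternatingGroup]
      show sign (ofSubtype (c : Perm {i : α // x i = i})) = 1
      rw [sign_ofSubtype]
      exact c.2
    · exact ofSubtype_apply_of_not_mem _ hi
  · intro hg
    have hfix : ∀ i, x (g i) = g i ↔ x i = i := by
      intro i
      have := moved (D_le hg) i
      tauto
    have h1 : ofSubtype (g.subtypePerm (p := fun i => x i = i) hfix) = g := by
      apply ofSubtype_subtypePerm (p := fun i => x i = i) hfix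
      intro i hi
      by_contra hne
      exact hi (hg.2 i hne)
    refine ⟨⟨g.subtypePerm (p := fun i => x i = i) hfix, ?_⟩, h1⟩
    rw [mem_alternatingGroup, ← sign_ofSubtype, h1]
    exact hg.1

/-- `Alt(Fix x) ≃ D` -/
noncomputable def eD (x : Perm α) : alternatingGroup {i : α // x i = i} ≃* D x :=
  (MonoidHom.ofInjective (phi_injective x)).trans (MulEquiv.subgroupCongr (range_phi x))

/-- **The components of `C(x) ∩ Alt(α)`**, `x` an involution. -/
theorem comp_perm (hx : x * x = 1) {K : Subgroup ↥(H x)} (hK : IsComponent K) :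
    K = (D x).subgroupOf (H x) ∧ 5 ≤ Fintype.card {i : α // x i = i} := by
  have hle := comp_le hx hK
  let e : (D x).subgroupOf (H x) ≃* alternatingGroup {i : α // x i = i} :=
    (subgroupOfEquivOfLe D_le).trans (eD x).symm
  have h5 : 5 ≤ Fintype.card {i : α // x i = i} := by
    by_contra hcon
    have hsol : Group.IsSolvable (alternatingGroup {i : α // x i = i}) := solvable_alt_four (by omega)
    have hs2 : Group.IsSolvable ((D x).subgroupOf (H x)) :=
      Group.isSolvable_of_isSolvable_injective (f := e.toMonoidHom) e.injective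
    have hs3 : Group.IsSolvable K :=
      Group.isSolvable_of_isSolvable_injective (f := Subgroup.inclusion hle) (Subgroup.inclusion_injective hle)
    exact Cfsg.Agent.Lib.ComponentSolvable.quasisimple_not_solvable hK.2 hs3
  refine ⟨?_, h5⟩
  have hsim : IsSimpleGroup (alternatingGroup {i : α // x i = i}) := by
    apply alternatingGroup.isSimpleGroup
    rw [Nat.card_eq_fintype_card]
    exact h5
  have : IsSimpleGroup ((D x).subgroupOf (H x)) := (MulEquiv.isSimpleGroup_congr e).2 hsim
  exact eq_of_le_simple hK hle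

end perm

/-- cardinality of the fixed points of an involution -/
theorem exists_card {n : ℕ} {x : Perm (Fin n)} (hx : x * x = 1) (hx1 : x ≠ 1) :
    ∃ k, 1 ≤ k ∧ Fintype.card {i : Fin n // x i = i} + 2 * k = n := by
  have h1 : Fintype.card {i : Fin n // x i = i} + Fintype.card {i : Fin n // ¬ x i = i} = n := by
    rw [Fintype.card_subtype_compl, Fintype.card_fin]
    have := Fintype.card_subtype_le (fun i : Fin n => x i = i)
    rw [Fintype.card_fin] at this
    omega
  have h2 : x.support.card = Fintype.card {i : Fin n // ¬ x i = i} := by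
    rw [Fintype.card_subtype]
    congr 1
  have h3 : 2 ∣ x.support.card := by
    have h4 : orderOf x = 2 := orderOf_eq_prime (by rw [pow_two]; exact hx) hx1
    have h5 := sum_cycleType x
    have : Fact (Nat.Prime 2) := ⟨Nat.prime_two⟩
    rw [← h5]
    apply Multiset.dvd_sum
    intro c hc
    have h6 := dvd_of_mem_cycleType hc
    have h7 := two_le_of_mem_cycleType hc
    rw [h4] at h6
    have := Nat.le_of_dvd two_pos h6
    have : c = 2 := by omega
    rw [this]
  obtain ⟨k, hk⟩ := h3
  refine ⟨k, ?_, by omega⟩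
  rcases Nat.eq_zero_or_pos k with rfl | h
  · exfalso
    apply hx1
    rw [mul_zero, Finset.card_eq_zero, support_eq_empty_iff] at hk
    exact hk
  · exact h

/-- **The components of `C_X(t)`**, `X ≅ A_n`, `n ≥ 7`, `t` an involutory automorphism. -/
theorem comp_fixed {X : Type*} [Group X] {n : ℕ} (hn : 7 ≤ n) (e : X ≃* alternatingGroup (Fin n)) (t : MulAut X)
    (ht : t * t = 1) (ht1 : t ≠ 1) (K : Subgroup ↥(fixedSubgroup t)) (hK : IsComponent K) :
    ∃ k, 1 ≤ k ∧ 5 + 2 * k ≤ n ∧ Nonempty (K ≃* alternatingGroup (Fin (n - 2 * k))) := by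
  obtain ⟨ψ, hψ⟩ := Cfsg.Agent.StandardComponent.AltAut.exists_autHom n hn
  set σ := ψ (MulAut.congr e t) with hσdef
  have hσ' : ∀ y : X, ((e (t y) : alternatingGroup (Fin n)) : Perm (Fin n)) = σ * e y * σ⁻¹ := by
    intro y
    have := hψ (MulAut.congr e t) (e y)
    rwa [MulAut.congr_apply, MulEquiv.trans_apply, MulEquiv.trans_apply, MulEquiv.symm_apply_apply] at this
  have hσ2 : σ * σ = 1 := by
    rw [hσdef, ← map_mul, ← map_mul, ht, map_one, map_one]
  have hσ1 : σ ≠ 1 := by
    intro h
    apply ht1
    ext y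
    apply e.injective
    apply Subtype.ext
    rw [hσ', h]
    simp
  -- `C_X(t) ≃ H σ`
  let f : ↥(fixedSubgroup t) ≃* ↥(H σ) :=
    { toFun := fun y => ⟨(e y : alternatingGroup (Fin n)), mem_inf.2 ⟨mem_centralizer_singleton_iff.2 (by
        have h1 := hσ' y
        have h2 : t (y : X) = y := y.2
        rw [h2] at h1
        rw [eq_mul_inv_iff_mul_eq] at h1
        exact h1), (e y).2⟩⟩
      invFun := fun g => ⟨e.symm ⟨g, g.2.2⟩, by
        show t _ = _
        apply e.injective
        apply Subtype.ext
        rw [hσ', e.apply_symm_apply]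
        show σ * (g : Perm (Fin n)) * σ⁻¹ = g
        rw [mul_inv_eq_iff_eq_mul]
        exact (mem_centralizer_singleton_iff.1 g.2.1).symm⟩
      left_inv := fun y => Subtype.ext (e.symm_apply_apply y)
      right_inv := fun g => Subtype.ext (congrArg (Subtype.val : alternatingGroup (Fin n) → Perm (Fin n))
        (e.apply_symm_apply ⟨g, g.2.2⟩))
      map_mul' := fun y z => Subtype.ext (congrArg (Subtype.val : alternatingGroup (Fin n) → Perm (Fin n))
        (map_mul e (y : X) (z : X))) }
  have hK' : IsComponent (K.map f.toMonoidHom) :=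
    Cfsg.Agent.SignalizersComponents.ComponentNormalize.component_map_equiv f hK
  obtain ⟨h1, h5⟩ := comp_perm hσ2 hK'
  obtain ⟨k, hk1, hk⟩ := exists_card hσ2 hσ1
  refine ⟨k, hk1, by omega, ⟨?_⟩⟩
  have e1 : K ≃* K.map f.toMonoidHom := K.equivMapOfInjective _ f.injective
  have e2 : K.map f.toMonoidHom ≃* (D σ).subgroupOf (H σ) := MulEquiv.subgroupCongr h1
  have e3 : (D σ).subgroupOf (H σ) ≃* alternatingGroup {i : Fin n // σ i = i} :=
    (subgroupOfEquivOfLe D_le).trans (eD σ).symm
  have e4 : {i : Fin n // σ i = i} ≃ Fin (n - 2 * k) := Fintype.equivFinOfCardEq (by omega)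
  exact ((e1.trans e2).trans e3).trans (e4.altCongrHom)

end Cfsg.Agent.H12.AltComp
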